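import Cfsg.Agent.T44.Spor.Loc
import Cfsg.Agent.S1545

/-!
# S3544, sporadic rows: Frobenius actions (helper35)

* `frob_card` : `|W : C_W(S)|` is a `t`-th power if an element of order `t` acts fixed-point-freely on `S`;
* `false_of_wie` : the second case of the dichotomy, with a fixed-point-free action;
* `Irr` : a group of order 81 with a non-trivial action of a `5`-element; `Irr.fix` : it fixes every point of an
  invariant set with fewer than 15 points; `Irr.pow_ten`.
-/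

set_option autoImplicit false

namespace Cfsg.Agent.T44.Spor

open Subgroup Cfsg
open scoped commutatorElement

variable {G : Type*} [Group G]

theorem cent_zpowers (a : G) : centralizer (zpowers a : Set G) = centralizer ({a} : Set G) := by
  ext x
  rw [mem_centralizer_iff, mem_centralizer_singleton_iff]
  refine ⟨fun h => (h a (mem_zpowers a)).symm, ?_⟩
  rintro h _ ⟨i, rfl⟩
  exact ((show Commute x a from h).zpow_right i).eq.symm

theorem zpowers_eq_of_prime [Finite G] {t : ℕ} (ht : t.Prime) {a e : G} (ha : orderOf a = t) (he : e ∈ zpowers a)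
    (h1 : e ≠ 1) : zpowers e = zpowers a := by
  refine eq_of_le_of_card_ge (zpowers_le.2 he) ?_
  have h2 : orderOf e ∣ t := by rw [← ha]; exact orderOf_dvd_of_mem_zpowers he
  rcases (Nat.dvd_prime ht).1 h2 with h3 | h3
  · exact absurd (orderOf_eq_one_iff.1 h3) h1
  · rw [Nat.card_zpowers, Nat.card_zpowers, h3, ha]

theorem pg_zpowers {t : ℕ} {a : G} (ha : orderOf a = t) : IsPGroup t (zpowers a) :=
  isPGroup_zpowers (k := 1) (by rw [pow_one, ← ha, pow_orderOf_eq_one])

/-- **a Frobenius group acting on an `r`-group** -/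
theorem frob_card [Finite G] {r p t : ℕ} (hr : r.Prime) (hp : p.Prime) (ht : t.Prime) (hpr : p ≠ r) (htr : t ≠ r)
    (htp : t ≠ p) {S W : Subgroup G} {a : G} (hS : IsPGroup p S) (hW : IsPGroup r W) (ha : orderOf a = t)
    (haS : a ∈ normalizer (S : Set G)) (hf : ∀ s ∈ S, a * s = s * a → s = 1) (hSW : S ≤ normalizer (W : Set G))
    (haW : a ∈ normalizer (W : Set G)) :
    ∃ k, Nat.card W = r ^ (t * k) * Nat.card (W ⊓ centralizer (S : Set G) : Subgroup G) := by
  have : Fact r.Prime := ⟨hr⟩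
  by_cases hS1 : S = ⊥
  · refine ⟨0, ?_⟩
    have : W ⊓ centralizer (S : Set G) = W := by
      refine inf_eq_left.2 fun x _ => mem_centralizer_iff.2 fun s hs => ?_
      rw [hS1] at hs
      rw [mem_bot.1 hs, one_mul, mul_one]
    rw [this]; simp
  have hE := pg_zpowers ha
  have ha1 : a ≠ 1 := by
    rintro rfl
    rw [orderOf_one] at ha
    exact ht.one_lt.ne ha
  have hcop : (Nat.card W).Coprime (Nat.card (S ⊔ zpowers a : Subgroup G)) := by
    obtain ⟨k, hk⟩ := hW.exists_card_eq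
    rw [hk, ← card_mul_relIndex (le_sup_left : S ≤ S ⊔ zpowers a)]
    refine Nat.Coprime.pow_left k ((Nat.Prime.coprime_iff_not_dvd hr).2 fun e => ?_)
    rcases hr.dvd_mul.1 e with e | e
    · exact not_dvd_card_of_pg hp hr hpr.symm hS e
    · exact not_dvd_relIndex_sup hr ht htr.symm hE (zpowers_le.2 haS) e
  have hnil := hW.isNilpotent
  have h1 := Cfsg.Agent.S1545.result S (zpowers a) W hS1 (by rwa [Ne, zpowers_eq_bot])
    (Subgroup.disjoint_of_coprime_natCard (coprime_of_pg ht hp htp.symm hE hS)).eq_bot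
    (fun e he u hu => conj_mem_of_norm (zpowers_le.2 haS) he hu)
    (fun e he he1 u hu hc => hf u hu (by
      have h2 : u ∈ centralizer (zpowers e : Set G) := by
        rw [cent_zpowers]; exact mem_centralizer_singleton_iff.2 hc.symm
      rw [zpowers_eq_of_prime ht ha he he1] at h2
      exact mem_centralizer_iff.1 h2 a (mem_zpowers a)))
    (fun x hx w hw => conj_mem_of_norm (sup_le hSW (zpowers_le.2 haW)) hx hw)
    (Subgroup.disjoint_of_coprime_natCard hcop).eq_bot inferInstance hcop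
  obtain ⟨i, hi⟩ := (hW.to_le (inf_le_left : W ⊓ centralizer ((S ⊔ zpowers a : Subgroup G) : Set G) ≤ W)).exists_card_eq
  obtain ⟨j, hj⟩ := (hW.to_le (inf_le_left : W ⊓ centralizer (zpowers a : Set G) ≤ W)).exists_card_eq
  have hij : i ≤ j := by
    have h2 := card_le_of_le (inf_le_inf_left W (centralizer_le (le_sup_right : zpowers a ≤ S ⊔ zpowers a)))
    rw [hi, hj] at h2
    exact (Nat.pow_le_pow_iff_right hr.one_lt).1 h2
  obtain ⟨k, rfl⟩ := Nat.exists_eq_add_of_le hij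
  refine ⟨k, ?_⟩
  rw [hi, hj, Nat.card_zpowers, ha, pow_add, mul_pow, mul_assoc] at h1
  rw [Nat.eq_of_mul_eq_mul_left (pow_pos (pow_pos hr.pos _) _) h1, ← pow_mul, mul_comm k t]

theorem dvd_of_sub {r t i j : ℕ} (hr : r.Prime) (ht : t.Prime) (htr : t ≠ r) (h1 : t ∣ r ^ (i + j) - 1)
    (h2 : t ∣ r ^ j - 1) : t ∣ r ^ i - 1 := by
  have h3 : t ∣ r ^ (i + j) - r ^ j := by
    have h4 := Nat.dvd_sub h1 h2
    have h5 : 1 ≤ r ^ j := Nat.one_le_pow _ _ hr.pos
    rwa [Nat.sub_sub, Nat.add_sub_cancel' h5] at h4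
  rw [pow_sub_pow (Nat.le_add_left j i), Nat.add_sub_cancel] at h3
  exact (Nat.Coprime.pow_right _ ((Nat.coprime_primes ht hr).2 htr)).dvd_of_dvd_mul_left h3

/-- **the second case of the dichotomy with a fixed-point-free action** -/
theorem false_of_wie {T H Q : Subgroup G} {r : ℕ} {Ya Yb : Set G} {da db : ℕ} (h : Cfg T H Q r Ya Yb da db) [Finite G]
    {t p m k : ℕ} (ht : t.Prime) (hp : p.Prime) (htr : t ≠ r) (hpr : p ≠ r) (hpt : p ≠ t)
    (hm : ¬ r ^ (m + 1) ∣ Nat.card Q) (hb : ∀ i, 0 < i → i ≤ m → ¬ t ^ 2 ∣ r ^ i - 1)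
    (hC : ∀ x ∈ T, orderOf x = t → p ∣ Nat.card (T ⊓ centralizer ({x} : Set G) : Subgroup G) →
      ¬ r ^ (k + 1) ∣ Nat.card (T ⊓ centralizer ({x} : Set G) : Subgroup G))
    (hj : ∀ j, 0 < j → j ≤ k → ¬ t ∣ r ^ j - 1) (hk : k < t) (hi : ∀ i, 0 < i → i ≤ m → t ∣ i → ¬ t ∣ r ^ i - 1)
    {u0 u : G} {S : Subgroup G} (hu0 : u0 ∈ T ⊓ H) (ho : orderOf u0 = t) (hu : u ∈ T ⊓ H) (hup : ∃ l : ℕ, u ^ t ^ l = 1)
    (hc : u * u0 = u0 * u) (hS : S ≤ T ⊓ H ⊓ centralizer ({u0} : Set G)) (hSp : IsPGroup p S)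
    (hn : u ∈ normalizer (S : Set G)) (hnc : u ∉ centralizer (S : Set G)) : False := by
  have : Fact r.Prime := ⟨h.prime⟩
  have : Fact p.Prime := ⟨hp⟩
  obtain ⟨l, hl⟩ := hup
  have hu0S : u0 ∈ centralizer (S : Set G) :=
    mem_centralizer_iff.2 fun s hs => mem_centralizer_singleton_iff.1 (hS hs).2
  set E : Subgroup G := zpowers u ⊔ zpowers u0 with hE
  have hcm : zpowers u ≤ centralizer (zpowers u0 : Set G) := by
    rw [cent_zpowers]; exact zpowers_le.2 (mem_centralizer_singleton_iff.2 hc)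
  have hEp : IsPGroup t E :=
    isPGroup_sup (isPGroup_zpowers hl) (pg_zpowers ho) (hcm.trans (centralizer_le_normalizer _))
  have hEM : E ≤ T ⊓ H := sup_le (zpowers_le.2 hu) (zpowers_le.2 hu0)
  have hEc : E ≤ centralizer (E : Set G) := by
    have h1 : ∀ a : G, zpowers a ≤ centralizer (zpowers a : Set G) := fun a => by
      rw [cent_zpowers]; exact zpowers_le.2 (mem_centralizer_singleton_iff.2 rfl)
    exact sup_le (le_cent_comm (sup_le (h1 u) (le_cent_comm hcm))) (le_cent_comm (sup_le hcm (h1 u0)))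
  have hEab : ∀ a ∈ E, ∀ b ∈ E, a * b = b * a := fun a ha b hb => mem_centralizer_iff.1 (hEc hb) a ha
  have hf := faith h ht htr hEp hEM
  have hEe : ∀ a ∈ E, a ^ t = 1 := fun a ha =>
    pow_eq_one_of_small h.prime ht htr h.isO.pg hm hEp (hEM.trans h.isO.norm) hf hb ha
  have hES : E ≤ normalizer (S : Set G) :=
    sup_le (zpowers_le.2 hn) (zpowers_le.2 (centralizer_le_normalizer _ hu0S))
  have hnc' : ¬ IsCyclic E := by
    refine not_cyclic_of_exp ht hEe ?_
    rw [← card_mul_relIndex (le_sup_right : zpowers u0 ≤ E), Nat.card_zpowers, ho, pow_two]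
    refine mul_dvd_mul_left t (dvd_relIndex_of_not_le ht hEp fun e => hnc ?_)
    exact (zpowers_le.2 hu0S) (e (mem_sup_left (mem_zpowers u)))
  have hS1 : S ≠ ⊥ := by
    rintro rfl
    exact hnc (mem_centralizer_iff.2 fun s hs => by rw [mem_bot.1 hs, one_mul, mul_one])
  have hpS : ∀ X : Subgroup G, X ≤ S → X ≠ ⊥ → p ∣ Nat.card X := by
    intro X h1 h2
    obtain ⟨n, hn⟩ := (hSp.to_le h1).exists_card_eq
    cases n with
    | zero => exact absurd (card_eq_one.1 hn) h2
    | succ n => rw [hn]; exact dvd_pow_self p (Nat.succ_ne_zero n)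
  have hsm : ∀ x ∈ T, orderOf x = t → S ⊓ centralizer ({x} : Set G) ≠ ⊥ →
      ¬ r ^ (k + 1) ∣ Nat.card (Q ⊓ centralizer ({x} : Set G) : Subgroup G) := fun x hx hxo hne e =>
    hC x hx hxo ((hpS _ inf_le_left hne).trans (card_dvd_of_le (inf_le_inf_right _ fun s hs => (hS hs).1.1)))
      (e.trans (card_dvd_of_le (inf_le_inf_right _ h.Q_le_T)))
  obtain ⟨a, ha, ha1, haS⟩ : ∃ a ∈ E, a ≠ 1 ∧ S ⊓ centralizer ({a} : Set G) = ⊥ := by
    by_contra hcon
    push Not at hcon
    have h1 : E ≤ centralizer (Q : Set G) := by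
      refine le_cent_of_forall hEab hnc' (hEM.trans h.isO.norm) (coprime_of_pg h.prime ht htr h.isO.pg hEp)
        fun a ha ha1 => ?_
      exact le_cent_of_small h.prime ht htr h.isO.pg.to_inf_left hEp
        (norm_inf (hEM.trans h.isO.norm) (norm_cent_single fun g hg => hEab g hg a ha))
        (hsm a (hEM ha).1 (orderOf_eq_of_pow ht (hEe a ha) ha1) (hcon a ha ha1)) hj
    have h2 := hf u0 (mem_sup_right (mem_zpowers u0)) (h1 (mem_sup_right (mem_zpowers u0)))
    rw [h2, orderOf_one] at ho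
    exact ht.one_lt.ne ho
  have hao := orderOf_eq_of_pow ht (hEe a ha) ha1
  have hfp : ∀ s ∈ S, a * s = s * a → s = 1 := fun s hs e => by
    have h1 : s ∈ S ⊓ centralizer ({a} : Set G) := ⟨hs, mem_centralizer_singleton_iff.2 e.symm⟩
    rwa [haS, mem_bot] at h1
  have hSM : S ≤ T ⊓ H := hS.trans inf_le_left
  have hu0E : u0 ∈ E := mem_sup_right (mem_zpowers u0)
  obtain ⟨k1, hk1⟩ := frob_card h.prime hp ht hpr htr hpt.symm hSp h.isO.pg hao (hES ha) hfp (hSM.trans h.isO.norm)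
    (h.isO.norm (hEM ha))
  obtain ⟨k0, hk0⟩ := frob_card (W := Q ⊓ centralizer ({u0} : Set G)) h.prime hp ht hpr htr hpt.symm hSp
    h.isO.pg.to_inf_left hao (hES ha) hfp
    (norm_inf (hSM.trans h.isO.norm) (norm_cent_single fun g hg => mem_centralizer_singleton_iff.1 (hS hg).2))
    (norm_inf (hEM.trans h.isO.norm) (norm_cent_single fun g hg => hEab g hg u0 hu0E) ha)
  have hk00 : k0 = 0 := by
    by_contra hne
    refine hsm u0 hu0.1 ho (by rw [inf_eq_left.2 (hS.trans inf_le_right)]; exact hS1) ?_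
    rw [hk0]
    refine Dvd.dvd.mul_right (pow_dvd_pow r ?_) _
    exact le_trans hk (Nat.le_mul_of_pos_right t (Nat.pos_of_ne_zero hne))
  rw [hk00, mul_zero, pow_zero, one_mul] at hk0
  have hk1' : 0 < k1 := by
    refine Nat.pos_of_ne_zero fun e => hS1 ?_
    rw [e, mul_zero, pow_zero, one_mul] at hk1
    have h1 : Q ≤ centralizer (S : Set G) := (eq_of_le_of_card_ge inf_le_left hk1.le).ge.trans inf_le_right
    exact (eq_bot_iff_forall _).2 fun s hs => faith h hp hpr hSp hSM s hs (le_cent_comm h1 hs)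
  obtain ⟨j1, hj1, e1⟩ := exists_mod' h.prime ht htr h.isO.pg (pg_zpowers ho) (zpowers_le.2 (h.isO.norm hu0))
  obtain ⟨j2, hj2, e2⟩ := exists_mod' (S := Q ⊓ centralizer (S : Set G)) h.prime ht htr h.isO.pg.to_inf_left
    (pg_zpowers ho) (zpowers_le.2 (norm_inf_cent (hEM.trans h.isO.norm) hES hu0E))
  rw [cent_zpowers] at e1 e2
  rw [inf_right_comm, ← hk0] at e2
  have e3 : j1 = t * k1 + j2 := by
    rw [e1, e2, ← mul_assoc, ← pow_add] at hk1
    exact Nat.pow_right_injective h.prime.two_le (Nat.eq_of_mul_eq_mul_right Nat.card_pos hk1)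
  refine hi (t * k1) (Nat.mul_pos ht.pos hk1') ?_ (dvd_mul_right _ _) (dvd_of_sub h.prime ht htr (e3 ▸ hj1) hj2)
  by_contra hlt
  exact hm ((pow_dvd_pow r (by omega)).trans (hk1 ▸ dvd_mul_right _ _))

/-! ### Groups of order 81 -/

/-- a `5`-element `w` acts non-trivially on the `3`-group `S` of order at most 81 -/
structure Irr (S : Subgroup G) (w : G) : Prop where
  pg : IsPGroup 3 S
  le : ¬ 3 ^ 5 ∣ Nat.card S
  pow : ∃ k : ℕ, w ^ 5 ^ k = 1
  norm : w ∈ normalizer (S : Set G)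
  nc : w ∉ centralizer (S : Set G)

namespace Irr

variable [Finite G] {S : Subgroup G} {w : G} (h : Irr S w)

include h

omit [Finite G] in
theorem pg5 : IsPGroup 5 (zpowers w) := h.pow.elim fun _ hk => isPGroup_zpowers hk

theorem card_fix : Nat.card S = 3 ^ 4 ∧ S ⊓ centralizer (zpowers w : Set G) = ⊥ := by
  have : Fact (Nat.Prime 3) := ⟨Nat.prime_three⟩
  obtain ⟨j, h0, h1, h2⟩ := exists_mod Nat.prime_three Nat.prime_five (by norm_num) h.pg h.pg5 (zpowers_le.2 h.norm)
    fun e => h.nc (e (mem_zpowers w))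
  obtain ⟨i, hi⟩ := (h.pg.to_le (inf_le_left : S ⊓ centralizer (zpowers w : Set G) ≤ S)).exists_card_eq
  rw [hi, ← pow_add] at h2
  have h3 : j + i ≤ 4 := by
    by_contra hc
    exact h.le (h2 ▸ pow_dvd_pow 3 (by omega))
  have h4 : j = 4 := by
    have : j ≤ 4 := by omega
    interval_cases j <;> simp_all
  obtain rfl : i = 0 := by omega
  exact ⟨by rw [h2, h4], card_eq_one.1 hi⟩

theorem irr {A : Subgroup G} (hA : A ≤ S) (hn : w ∈ normalizer (A : Set G)) : A = ⊥ ∨ A = S := by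
  obtain ⟨j, h1, h2⟩ := exists_mod' Nat.prime_three Nat.prime_five (by norm_num) (h.pg.to_le hA) h.pg5
    (zpowers_le.2 hn)
  have h3 : A ⊓ centralizer (zpowers w : Set G) = ⊥ := le_bot_iff.1 (h.card_fix.2 ▸ inf_le_inf_right _ hA)
  rw [h3, card_bot, mul_one] at h2
  have h4 := card_le_of_le hA
  rw [h2, h.card_fix.1] at h4
  have h5 : j ≤ 4 := (Nat.pow_le_pow_iff_right (by norm_num)).1 h4
  have h6 : j = 0 ∨ j = 4 := by interval_cases j <;> simp_all
  rcases h6 with rfl | rfl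
  · exact Or.inl (card_eq_one.1 h2)
  · exact Or.inr (eq_of_le_of_card_ge hA (by rw [h2, h.card_fix.1]))

theorem ne_bot : S ≠ ⊥ := fun e => by
  have h1 := h.card_fix.1
  rw [e, card_bot] at h1
  norm_num at h1

theorem comm : ∀ a ∈ S, ∀ b ∈ S, a * b = b * a := by
  rcases h.irr (A := S ⊓ centralizer (S : Set G)) inf_le_left
    (norm_inf_cent (zpowers_le.2 h.norm) (zpowers_le.2 h.norm) (mem_zpowers w)) with e | e
  · obtain ⟨u, hu, ho, hc⟩ := exists_central Nat.prime_three h.pg le_rfl h.ne_bot le_normalizer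
    have h1 : u ∈ S ⊓ centralizer (S : Set G) := ⟨hu, mem_centralizer_iff.2 hc⟩
    rw [e, mem_bot] at h1
    rw [h1, orderOf_one] at ho
    norm_num at ho
  · exact fun a ha b hb => mem_centralizer_iff.1 (e.ge hb).2 a ha

/-- **`S` fixes the points of a small invariant set** -/
theorem fix {Ω : Type*} (φ : G →* Equiv.Perm Ω) (F : Finset Ω) (hF : F.card < 15)
    (hS : ∀ s ∈ S, ∀ a ∈ F, φ s a ∈ F) (hw : ∀ a ∈ F, φ w a ∈ F) {a : Ω} (ha : a ∈ F) : ∀ s ∈ S, φ s a = a := by
  classical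
  let _ : MulAction G Ω := MulAction.compHom Ω φ
  have hsm : ∀ (g : G) (b : Ω), g • b = φ g b := fun _ _ => rfl
  by_contra hcon
  push Not at hcon
  obtain ⟨s, hs, hsa⟩ := hcon
  set A : Subgroup G := S ⊓ MulAction.stabilizer G a with hA
  have hAS : A ≠ S := fun e => hsa (e.ge hs).2
  have hwi : ∀ (i : ℕ) (b : Ω), b ∈ F → (w ^ i) • b ∈ F := by
    intro i
    induction i with
    | zero => intro b hb; rwa [pow_zero, one_smul]
    | succ i ih => intro b hb; rw [pow_succ', mul_smul]; exact hw _ (ih b hb)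
  have hSi : ∀ i : ℕ, w ^ i ∈ normalizer (S : Set G) := fun i => pow_mem h.norm i
  -- an element moving `a` inside its orbit normalises `A`
  have key : ∀ g ∈ normalizer (S : Set G), ∀ s' ∈ S, g • a = s' • a → g ∈ normalizer (A : Set G) := by
    intro g hg s' hs' e
    rw [← cj_eq_iff]
    refine eq_of_le_of_card_ge ?_ (by rw [card_cj])
    rintro _ ⟨x, hx, rfl⟩
    have h1 : g * x * g⁻¹ ∈ S := conj_mem_of_norm le_rfl hg hx.1
    refine ⟨h1, ?_⟩
    change (g * x * g⁻¹) • a = a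
    have h2 : (g * x * g⁻¹) • s' • a = s' • a := by
      rw [← e, ← mul_smul, inv_mul_cancel_right, mul_smul, show x • a = a from hx.2]
    rw [← mul_smul, h.comm _ h1 _ hs', mul_smul] at h2
    exact smul_left_cancel s' h2
  by_cases hn : w ∈ normalizer (A : Set G)
  · have h1 : A = ⊥ := (h.irr inf_le_left hn).resolve_right hAS
    have h2 : Nat.card S ≤ Nat.card F := by
      refine Nat.card_le_card_of_injective (fun x : S => (⟨(x : G) • a, hS x x.2 a ha⟩ : F)) fun x y e => ?_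
      have h3 : (x : G) • a = (y : G) • a := congrArg Subtype.val e
      have h4 : (y : G)⁻¹ * x ∈ A := ⟨S.mul_mem (S.inv_mem y.2) x.2, by
        change ((y : G)⁻¹ * x) • a = a
        rw [mul_smul, h3, inv_smul_smul]⟩
      rw [h1, mem_bot, inv_mul_eq_one] at h4
      exact Subtype.ext h4.symm
    rw [h.card_fix.1, Nat.card_eq_finsetCard] at h2
    omega
  obtain ⟨l, hl⟩ := h.pow
  obtain ⟨l', hl'⟩ := pow_of_pg h.pg hs
  have hw5 : ∀ i : ℕ, 0 < i → i < 5 → w ^ i ∉ normalizer (A : Set G) := by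
    intro i h0 h5 e
    have h1 : (orderOf w).Coprime i := Nat.Coprime.coprime_dvd_left (orderOf_dvd_of_pow_eq_one hl)
      (Nat.Coprime.pow_left l ((Nat.Prime.coprime_iff_not_dvd Nat.prime_five).2 (Nat.not_dvd_of_pos_of_lt h0 h5)))
    obtain ⟨n, hn'⟩ := exists_pow_eq_self_of_coprime h1.symm
    exact hn (hn' ▸ pow_mem e n)
  have hs3 : ∀ i : ℕ, 0 < i → i < 3 → (s ^ i) • a ≠ a := by
    intro i h0 h3 e
    have h1 : (orderOf s).Coprime i := Nat.Coprime.coprime_dvd_left (orderOf_dvd_of_pow_eq_one hl')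
      (Nat.Coprime.pow_left l' ((Nat.Prime.coprime_iff_not_dvd Nat.prime_three).2 (Nat.not_dvd_of_pos_of_lt h0 h3)))
    obtain ⟨n, hn'⟩ := exists_pow_eq_self_of_coprime h1.symm
    have h2 : s ∈ MulAction.stabilizer G a := hn' ▸ pow_mem (show s ^ i ∈ MulAction.stabilizer G a from e) n
    exact hsa h2
  have hlt : ∀ i i' j j' : ℕ, i < i' → i' < 5 → (w ^ i) • (s ^ j) • a ≠ (w ^ i') • (s ^ j') • a := by
    intro i i' j j' h1 h2 e
    obtain ⟨d, rfl⟩ := Nat.exists_eq_add_of_lt h1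
    rw [add_assoc, pow_add, mul_smul] at e
    have e2 := smul_left_cancel _ e
    refine hw5 (d + 1) (by omega) (by omega) (key _ (hSi _)
      ((w ^ (d + 1) * s ^ j' * (w ^ (d + 1))⁻¹)⁻¹ * s ^ j)
      (S.mul_mem (S.inv_mem (conj_mem_of_norm le_rfl (hSi _) (S.pow_mem hs _))) (S.pow_mem hs _)) ?_)
    rw [mul_smul, e2, ← mul_smul, ← mul_smul]
    congr 1
    group
  have hlt' : ∀ j j' : ℕ, j < j' → j' < 3 → (s ^ j) • a ≠ (s ^ j') • a := by
    intro j j' h1 h2 e
    obtain ⟨d, rfl⟩ := Nat.exists_eq_add_of_lt h1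
    rw [add_assoc, pow_add, mul_smul] at e
    exact hs3 (d + 1) (by omega) (by omega) (smul_left_cancel _ e).symm
  have h2 : Nat.card (Fin 5 × Fin 3) ≤ Nat.card F := by
    refine Nat.card_le_card_of_injective (fun x : Fin 5 × Fin 3 =>
      (⟨(w ^ (x.1 : ℕ)) • (s ^ (x.2 : ℕ)) • a, hwi _ _ (hS _ (S.pow_mem hs _) a ha)⟩ : F)) fun x y e => ?_
    have h3 : (w ^ (x.1 : ℕ)) • (s ^ (x.2 : ℕ)) • a = (w ^ (y.1 : ℕ)) • (s ^ (y.2 : ℕ)) • a := congrArg Subtype.val e
    have h4 : (x.1 : ℕ) = y.1 := by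
      rcases lt_trichotomy (x.1 : ℕ) y.1 with h5 | h5 | h5
      · exact absurd h3 (hlt _ _ _ _ h5 y.1.2)
      · exact h5
      · exact absurd h3.symm (hlt _ _ _ _ h5 x.1.2)
    rw [h4] at h3
    have h5 := smul_left_cancel _ h3
    have h6 : (x.2 : ℕ) = y.2 := by
      rcases lt_trichotomy (x.2 : ℕ) y.2 with h6 | h6 | h6
      · exact absurd h5 (hlt' _ _ h6 y.2.2)
      · exact h6
      · exact absurd h5.symm (hlt' _ _ h6 x.2.2)
    exact Prod.ext (Fin.ext h4) (Fin.ext h6)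
  rw [Nat.card_prod, Nat.card_fin, Nat.card_fin, Nat.card_eq_finsetCard] at h2
  omega

/-- a `2`-group on which `S` acts non-trivially -/
theorem pow_ten (ho : orderOf w = 5) {W : Subgroup G} (hW : IsPGroup 2 W) (hSW : S ≤ normalizer (W : Set G))
    (hwW : w ∈ normalizer (W : Set G)) (hnc : ¬ S ≤ centralizer (W : Set G)) :
    ∃ k, 2 ≤ k ∧ Nat.card W = 2 ^ (5 * k) * Nat.card (W ⊓ centralizer (S : Set G) : Subgroup G) := by
  have : Fact (Nat.Prime 2) := ⟨Nat.prime_two⟩
  obtain ⟨k, hk⟩ := frob_card Nat.prime_two Nat.prime_three Nat.prime_five (by norm_num) (by norm_num) (by norm_num)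
    h.pg hW ho h.norm (fun s hs e => by
      have h1 : s ∈ S ⊓ centralizer (zpowers w : Set G) := ⟨hs, by
        rw [cent_zpowers]; exact mem_centralizer_singleton_iff.2 e.symm⟩
      rwa [h.card_fix.2, mem_bot] at h1) hSW hwW
  refine ⟨k, ?_, hk⟩
  by_contra hlt
  obtain ⟨j, hj⟩ := hW.exists_card_eq
  obtain ⟨i, hi⟩ := (hW.to_le (inf_le_left : W ⊓ centralizer (S : Set G) ≤ W)).exists_card_eq
  have h1 : j ≤ i + 5 := by
    rw [hj, hi, ← pow_add] at hk
    have := Nat.pow_right_injective le_rfl hk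
    omega
  have h2 := gl_aux Nat.prime_two Nat.prime_three (by norm_num) hj 5 S i h.pg hSW hi h1
  have h3 : centralizer (W : Set G) ⊓ S = ⊥ := by
    refine (h.irr inf_le_right (norm_inf (norm_centralizer (zpowers_le.2 hwW)) (zpowers_le.2 h.norm)
      (mem_zpowers w))).resolve_right fun e => hnc (e.ge.trans inf_le_left)
  rw [← inf_relIndex_right, h3, relIndex_bot_left, h.card_fix.1] at h2
  revert h2
  decide +kernel

end Irr

end Cfsg.Agent.T44.Spor
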