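import Cfsg.Agent.T44.Spor.Co
import Cfsg.Agent.T44.Spor.Wie
import Cfsg.Agent.H199.NSmFi24
import Cfsg.Agent.H187.FiOdd.Cent
import Cfsg.Agent.H968.Tor.FiFour
import Cfsg.Agent.CpAutFiSeven.None

/-!
# S3544, sporadic rows: `Fi₂₄'` (helper35)
-/

set_option autoImplicit false
set_option maxRecDepth 100000

namespace Cfsg.Agent.T44.Spor

open Subgroup Cfsg
open Cfsg.Spor (Fi24 Fi24')

theorem nt_of_hom {Y : Type*} [Group Y] [Finite Y]
    (h : ∀ x : Y, orderOf x = 5 → ¬ 3 ^ 5 ∣ Nat.card (centralizer ({x} : Set Y)) ∧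
      ∃ φ : centralizer ({x} : Set Y) →* Equiv.Perm (Fin 9), ∀ s, φ s = 1 → s ^ 3 = 1 → s = 1) :
    NT (⊤ : Subgroup Y) 5 3 := by
  rintro x - hx w - ⟨k, hk⟩ hc S hS hSp hn
  by_contra hnc
  obtain ⟨h1, φ, hφ⟩ := h x hx
  have hw : w ∈ centralizer ({x} : Set Y) := mem_centralizer_singleton_iff.2 hc
  have I : Irr (S.subgroupOf (centralizer ({x} : Set Y))) ⟨w, hw⟩ := by
    refine ⟨hSp.comap_subtype, fun e => h1 (e.trans (card_subgroup_dvd_card _)), ⟨k, Subtype.ext hk⟩, ?_, fun e => hnc ?_⟩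
    · rw [mem_normalizer_iff] at hn ⊢
      exact fun s => hn s
    · rw [mem_centralizer_iff] at e ⊢
      exact fun s hs => congrArg Subtype.val (e ⟨s, (hS hs).2⟩ hs)
  have : Fact (Nat.Prime 3) := ⟨Nat.prime_three⟩
  obtain ⟨s, hs⟩ := exists_prime_orderOf_dvd_card' (G := S.subgroupOf (centralizer ({x} : Set Y))) 3
    (by rw [I.card_fix.1]; norm_num)
  have h2 : (s : centralizer ({x} : Set Y)) = 1 := by
    refine hφ _ (Equiv.ext fun a => ?_) (by rw [← hs, ← orderOf_coe, pow_orderOf_eq_one])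
    exact I.fix φ Finset.univ (by simp) (fun _ _ _ _ => Finset.mem_univ _) (fun _ _ => Finset.mem_univ _)
      (Finset.mem_univ a) _ s.2
  rw [← orderOf_coe, h2, orderOf_one] at hs
  norm_num at hs

section fi

attribute [local instance] R08.FiTwentyFour.finite_Fi24

theorem fi_dvd (x : Fi24') :
    Nat.card (centralizer ({x} : Set Fi24')) ∣ Nat.card (centralizer ({(x : Fi24)} : Set Fi24)) := by
  rw [← card_map_of_injective (commutator Fi24).subtype_injective]
  refine card_dvd_of_le ?_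
  rintro _ ⟨g, hg, rfl⟩
  exact mem_centralizer_singleton_iff.2 (congrArg Subtype.val (mem_centralizer_singleton_iff.1 hg))

open Cfsg.Agent.LThreeFi24.SNine in
theorem fi_nt : NT (⊤ : Subgroup Fi24') 5 3 := by
  refine nt_of_hom fun x hx => ?_
  have hx' : orderOf (x : Fi24) = 5 := by rw [orderOf_coe, hx]
  refine ⟨fun e => H199.NSmFi24.five hx' (e.trans (fi_dvd x)), ?_⟩
  obtain ⟨g, hg⟩ := LThreeFi24.FiveConj.exists_conj_five hx'
  let f : centralizer ({x} : Set Fi24') →* G0 :=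
    ((MulAut.conj g).toMonoidHom.comp ((commutator Fi24).subtype.comp (centralizer ({x} : Set Fi24')).subtype)).codRestrict
      G0 fun s => by
        rw [mem_G0, ← hg]
        have h2 : ((s : Fi24') : Fi24) * x = x * (s : Fi24') :=
          congrArg Subtype.val (mem_centralizer_singleton_iff.1 s.2)
        change g * ((s : Fi24') : Fi24) * g⁻¹ * _ = _ * (g * ((s : Fi24') : Fi24) * g⁻¹)
        calc g * ((s : Fi24') : Fi24) * g⁻¹ * (g * x * g⁻¹) = g * (((s : Fi24') : Fi24) * x) * g⁻¹ := by group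
          _ = _ := by rw [h2]; group
  refine ⟨H199.NSmFi24.phi.comp f, fun s h1 h2 => ?_⟩
  have h3 : f s = 1 := H199.NSmFi24.phi_ker h1 (by rw [← map_pow, h2, map_one])
  have h4 : g * ((s : Fi24') : Fi24) * g⁻¹ = 1 := congrArg Subtype.val h3
  exact Subtype.ext (Subtype.ext (by simpa using h4))

open Cfsg.Agent.H842.SevenSyl in
theorem fi_seven {x : Fi24'} (hx : orderOf x = 7) :
    ¬ 3 ^ (5 + 1) ∣ Nat.card (centralizer ({x} : Set Fi24')) ∧
      ¬ 2 ^ (5 + 1) ∣ Nat.card (centralizer ({x} : Set Fi24')) := by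
  have hx' : orderOf (x : Fi24) = 7 := by rw [orderOf_coe, hx]
  have h0 := fi_dvd x
  obtain ⟨g, hg | hg⟩ := cases7 (X := zpowers (x : Fi24)) (by rw [Nat.card_zpowers, hx'])
  · rw [H187.FiOdd.card_cent_of_map hg] at h0
    have h1 := h0.trans card_cent_y7
    exact ⟨fun e => absurd (e.trans h1) (by norm_num), fun e => absurd (e.trans h1) (by norm_num)⟩
  rw [H187.FiOdd.card_cent_of_map hg] at h0
  refine ⟨fun e => ?_, fun e => CpAutFiSeven.not_four_cent hx (fun d hd hc => ?_) ((show 4 ∣ _ by norm_num).trans e)⟩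
  · have h1 : 7 ^ 3 ∣ Nat.card (centralizer ({c} : Set Fi24)) := by
      rw [← dat.card_P]
      refine card_dvd_of_le ?_
      rintro _ ⟨k, i, j, rfl⟩
      refine mul_mem (mul_mem (pow_mem ?_ _) (pow_mem ?_ _)) (pow_mem ?_ _)
      · exact mem_centralizer_singleton_iff.2 u_c
      · exact mem_centralizer_singleton_iff.2 c_y7.symm
      · exact mem_centralizer_singleton_iff.2 rfl
    obtain ⟨t, ht, htx⟩ := H968.Tor.seven24 hx
    have h2 : 2 ∣ Nat.card (centralizer ({x} : Set Fi24')) := by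
      rw [← ht]
      exact Subgroup.orderOf_dvd_natCard _ (mem_centralizer_singleton_iff.2 htx)
    have h3 := Nat.Coprime.mul_dvd_of_dvd_of_dvd (by norm_num)
      ((Nat.Coprime.mul_dvd_of_dvd_of_dvd (by norm_num) e h2).trans h0) h1
    have h4 := (Nat.le_of_dvd Nat.card_pos h3).trans H187.FiOdd.c7
    norm_num at h4
  · have h1 : c ∈ (zpowers (x : Fi24)).map (MulAut.conj g).toMonoidHom := hg ▸ mem_zpowers c
    obtain ⟨_, ⟨i, rfl⟩, h2⟩ := h1
    have h3 : g * (x : Fi24) ^ i * g⁻¹ = c := h2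
    refine not_comm_c (R08.FiTwentyFour.conj_mem_L hd g) ?_
    have h4 : (x : Fi24) ^ i * d = d * (x : Fi24) ^ i := ((show Commute (x : Fi24) d from hc).zpow_left i).eq
    rw [← h3]
    calc g * (x : Fi24) ^ i * g⁻¹ * (g * d * g⁻¹) = g * ((x : Fi24) ^ i * d) * g⁻¹ := by group
      _ = _ := by rw [h4]; group

end fi

theorem row_fi24 {G : Type*} [Group G] [Finite G] {T H Q : Subgroup G} {r : ℕ} {Ya Yb : Set G} {da db : ℕ}
    (h : Cfg T H Q r Ya Yb da db) (e : Spor.IsoFi24' T) : False := by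
  obtain ⟨f⟩ := e
  refine (dat_of f (NotCT.Orders.fi24 ⟨MulEquiv.refl _⟩) (by decide +kernel) (cb := [(7, 3, 5), (7, 2, 5)])
    (nt := [(5, 3)]) ?_ ?_).false_of h (by decide +kernel)
  · intro c hc y hy
    simp only [List.mem_cons, List.not_mem_nil, or_false] at hc
    rcases hc with rfl | rfl
    · exact (fi_seven hy).1
    · exact (fi_seven hy).2
  · intro c hc
    obtain rfl := List.mem_singleton.1 hc
    exact fi_nt

end Cfsg.Agent.T44.Spor
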