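import Cfsg.Agent.T44.Spor.Geo
import Cfsg.Agent.DS.B.Model

/-!
# S3544, sporadic rows: the 2-local geometry of the model of the Monster (helper35)
-/

set_option autoImplicit false
set_option linter.style.haveILetI false
set_option maxRecDepth 100000

namespace Cfsg.Agent.T44.Spor

open Subgroup Cfsg Cfsg.Agent.R2.M7
open scoped commutatorElement

/-- commuting normal subgroups of a group with a simple quotient -/
theorem le_ker_or {N X : Type*} [Group N] [Group X] [IsSimpleGroup X] (hX : ∀ g ∈ center X, g = 1) {β : N →* X}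
    (hβ : Function.Surjective β) {A B : Subgroup N} (hA : A.Normal) (h : ⁅A, B⁆ ≤ β.ker) :
    A ≤ β.ker ∨ B ≤ β.ker := by
  rcases (hA.map β hβ).eq_bot_or_eq_top with e | e
  · exact Or.inl ((Subgroup.map_eq_bot_iff _).1 e)
  refine Or.inr fun b hb => hX _ (mem_center_iff.2 fun g => ?_)
  obtain ⟨a, ha, rfl⟩ : g ∈ A.map β := e ▸ mem_top g
  rw [← commutatorElement_eq_one_iff_mul_comm, ← map_commutatorElement]
  exact h (commutator_mem_commutator ha hb)

section chart

open Cfsg.Agent.MonsterU.Lam2 (L2)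
open Cfsg.Agent.MonsterU.Ch
open Cfsg.Agent.MonsterU.AmalSide (four cent2 mem_cent2)
open Cfsg.Agent.CoOneType.SignFacts
open Cfsg.Agent.R2.H4.Mon.Frm
open Cfsg.Agent.R2.H4.Mon.GeoInst
open Cfsg.Agent.H848.TenB (T)
open Cfsg.Spor (Co1)

variable {G : Type} [Group G] [Finite G] {Q : Subgroup G} {z : G} {eta : G → L2}
  {pi : Subgroup.centralizer ({z} : Set G) →* Co1} {y τ : G}

open Cfsg.Agent.H848.NormFour in
omit [Finite G] in
theorem four_std (F : Fr Q z eta pi y τ) :
    ¬ 5 ^ 2 ∣ Nat.card (centralizer ({z} : Set G) ⊓ centralizer ({y} : Set G) : Subgroup G) := by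
  have h1 : centralizer ({z} : Set G) ⊓ centralizer ({y} : Set G) = cent2 z y := by
    ext g
    rw [mem_inf, mem_centralizer_singleton_iff, mem_centralizer_singleton_iff, mem_cent2]
  have h2 := (rho F.ch F.hyQ F.hy).ker.card_mul_index
  rw [card_ker, index_ker, MonoidHom.range_eq_top_of_surjective _ (rho_surj F.ch F.hyQ F.hy), card_top,
    NotCT.Orders.m24 ⟨MulEquiv.refl _⟩, Nat.card_congr (subgroupOfEquivOfLe (cent2_le F.ch F.hyQ F.hy)).toEquiv] at h2
  rw [h1, ← h2]
  norm_num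

open Cfsg.Agent.H848 Cfsg.Agent.H848.TenC Cfsg.Agent.H848.TenF Cfsg.Agent.LieClassical.OrthCore in
theorem ark_std {o : golayCode} (ho : wt o = 8) (F : Fr Q z eta pi y τ) (hE : TE F.ch τ) :
    ¬ 5 ^ 3 ∣ Nat.card (normalizer (T F.ch o : Set G)) ∧ ∀ A B : Subgroup G, A ≤ normalizer (T F.ch o : Set G) →
      B ≤ normalizer (T F.ch o : Set G) → normalizer (T F.ch o : Set G) ≤ normalizer (A : Set G) →
      normalizer (T F.ch o : Set G) ≤ normalizer (B : Set G) → ⁅A, B⁆ ≤ centralizer (T F.ch o : Set G) →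
      IsPGroup 2 A ∨ IsPGroup 2 B := by
  have h := F.ch
  have Fo := facts ho
  obtain ⟨s, hs, hsQ, ⟨g, hg, hgz⟩, hsk, ι, c⟩ := TenE.exists_crd h Fo F.hyQ F.hy F.τz F.τy hE
  obtain ⟨β, hβ⟩ := exists_beta c
  obtain ⟨hrange, hcard⟩ := TenH.range_eq h Fo F.hyQ F.hy F.τz F.τy hE c hβ hs hsQ hg hgz hsk
  have hker := ker_beta c hβ
  constructor
  · have h2 := β.ker.card_mul_index
    rw [index_ker, hrange, TenH.card_E, hker, Nat.card_congr (subgroupOfEquivOfLe (TenG.C_le_N h)).toEquiv,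
      hcard] at h2
    rw [← h2]
    norm_num
  intro A B hA hB hnA _ hc
  have hZ : center (E QF) = ⊥ := eq_bot_iff.2 fun _ hg => TenH.E_center hg
  haveI : IsSimpleGroup (E QF) := by
    haveI := Cfsg.Agent.LieClassical.OrthSimple.good_isSimpleGroup good
    exact (QuotientGroup.quotientBot.symm.trans (QuotientGroup.quotientMulEquivOfEq hZ.symm)).isSimpleGroup
  let β' : normalizer (T F.ch o : Set G) →* E QF := β.codRestrict _ fun x => hrange ▸ ⟨x, rfl⟩
  have h1 : Function.Surjective β' := by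
    rintro ⟨x, hx⟩
    rw [← hrange] at hx
    obtain ⟨n, rfl⟩ := hx
    exact ⟨n, rfl⟩
  have h2 : β'.ker = (centralizer (T F.ch o : Set G)).subgroupOf _ := (β.ker_codRestrict _ _).trans hker
  have h3 : ∀ K : Subgroup G, K ≤ normalizer (T F.ch o : Set G) → K.subgroupOf _ ≤ β'.ker → IsPGroup 2 K := by
    intro K hK e
    rw [h2] at e
    exact (IsPGroup.of_card hcard).to_le fun x hx => e (show (⟨x, hK hx⟩ : normalizer (T F.ch o : Set G)) ∈ _ from hx)
  refine (le_ker_or (fun _ hg => TenH.E_center hg) h1 ((normal_subgroupOf_iff_le_normalizer hA).2 hnA) ?_).imp (h3 A hA) (h3 B hB)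
  rw [h2, commutator_le]
  exact fun a ha b hb => hc (commutator_mem_commutator ha hb)

theorem yf_of {o : golayCode} (ho : wt o = 8) (F : Fr Q z eta pi y τ) (hE : TE F.ch τ)
    (X : DS.B.XF (geo F.ch o)) (h127 : ¬ 127 ∣ Nat.card G) : YF (geo F.ch o) where
  facts := X.facts
  mainC := X.mainC
  sep := X.sep
  syl := X.syl
  c127 := h127
  four := by
    intro u hu v hv huv hne
    obtain ⟨eta', pi', τ', F'⟩ := F.at_pair hu hv huv hne
    exact four_std F'
  ark5 := by
    rintro _ ⟨g, rfl⟩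
    have h1 : normalizer ((Geo.cj g (T F.ch o) : Subgroup G) : Set G) = T44.cj g (normalizer (T F.ch o : Set G)) :=
      (cj_normalizer g _).symm
    rw [h1, card_cj]
    exact (ark_std ho F hE).1
  arkS := by
    rintro _ ⟨g, rfl⟩ A B hA hB hnA hnB hc
    have h1 : normalizer ((Geo.cj g (T F.ch o) : Subgroup G) : Set G) = T44.cj g (normalizer (T F.ch o : Set G)) :=
      (cj_normalizer g _).symm
    have h2 : centralizer ((Geo.cj g (T F.ch o) : Subgroup G) : Set G) = T44.cj g (centralizer (T F.ch o : Set G)) :=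
      (cj_centralizer g _).symm
    rw [h1] at hA hB hnA hnB
    rw [h2] at hc
    have k1 : ∀ {K L : Subgroup G}, K ≤ T44.cj g L → T44.cj g⁻¹ K ≤ L := fun e => cj_le_iff.2 (by rwa [inv_inv])
    have k2 : ∀ {K : Subgroup G}, IsPGroup 2 (T44.cj g⁻¹ K) → IsPGroup 2 K := fun {K} e => by
      have h3 := isPGroup_cj g e
      rwa [cj_cj_inv] at h3
    refine ((ark_std ho F hE).2 _ _ (k1 hA) (k1 hB) ?_ ?_ ?_).imp k2 k2
    · rw [← cj_normalizer]
      exact cj_le_iff.1 hnA
    · rw [← cj_normalizer]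
      exact cj_le_iff.1 hnB
    · rw [← cj_commutator]
      exact k1 hc

end chart

section model

open Cfsg.Agent.R2.H4.Mon.Frm Cfsg.Agent.R2.H4.Mon.GeoInst Cfsg.Agent.R2.H10.Mon.TwoA
open Cfsg.Agent.MonsterX Cfsg.Agent.MonsterX.InstData Cfsg.Agent.MonsterX.MainPack Cfsg.Agent.MonsterU
open Cfsg.Agent.MonsterP Cfsg.Agent.MonsterN Cfsg.Agent.LThree
open Cfsg.Agent.MonsterX.MainBasic Cfsg.Agent.MonsterX.MainSimple Cfsg.Agent.MonsterX.Model
open Cfsg.Agent.LThreeB.Row (TA)
open Cfsg.Agent.MThirteen Cfsg.Agent.MThirteen.TwoARow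
open Cfsg.Agent.R2.H4.Mon.MonFr
open Cfsg.Agent.LThreeMB (KChart.Cent KChart.pi KChart.chart KChart.pi_eq)

/-- **The geometry of the model.** -/
theorem exists_yf : ∃ Γ : Geo ↥InstData.M.G, YF Γ ∧ ∀ t, TA t → t * t = 1 ∧ t ≠ 1 ∧ t ∉ Γ.Pt := by
  haveI := finite_model
  haveI := simple_model
  have h := KChart.chart KDone.lft hc
  obtain ⟨g, h1, h2, -⟩ := Cfsg.Agent.MonsterU.Fused.exists_type_four h
  obtain ⟨s, τ, h3, h4, h5⟩ := Cfsg.Agent.MonsterU.AmalSideOf.exists_frame h h1 h2 ⟨g, rfl⟩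
  obtain ⟨o, ho⟩ := exists_octad
  obtain ⟨τ', F, hE⟩ := Fr.exists_TE
    { ch := h.smul s
      hyQ := h1
      hy := h5
      τz := h3
      τy := h4
      noB := noB_smul noB_model s }
  refine ⟨geo F.ch o, yf_of ho F hE (DS.B.xf_of ho F hE (fun a b ha hb => afacts_model.conj a b ha hb)
    (fun t ht u hu v hv => DS.B.cls_model ht hu hv) ?_) ?_, fun t ht => isA_of_ta ht⟩
  · intro h6
    have h7 := (centralizer ({KDone.K.z} : Set ↥InstData.M.G)).card_mul_index
    rw [H820.Model.card_cent_z, MThirteen.Row.card_M] at h7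
    have h8 := Nat.mul_dvd_mul_left (4157776806543360000 * 2 ^ 25) h6
    rw [h7] at h8
    norm_num at h8
  · rw [MThirteen.Row.card_M]
    norm_num

end model

end Cfsg.Agent.T44.Spor
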