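import Cfsg.Agent.T44.Spor.Chk
import Cfsg.Agent.T44.Spor.Wie

/-!
# S3544, sporadic rows: two alive primes (helper35)

The cases `r = 3, 5, 7` of the Monster.
-/

set_option autoImplicit false

namespace Cfsg.Agent.T44.Spor

open Subgroup Cfsg

variable {G : Type*} [Group G] [Finite G] {T H Q : Subgroup G} {r : ℕ} {Ya Yb : Set G} {da db : ℕ}

/-- the index is a small power of the only good prime -/
theorem idx_le (h : Cfg T H Q r Ya Yb da db) {t k : ℕ} (g : Good Q H Yb t) (ht : ∀ s, Good Q H Yb s → s = t)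
    (hk : ¬ t ^ (k + 2) ∣ Nat.card (T ⊓ H : Subgroup G)) {z : G} (hz : z ∈ Yb) :
    ∃ j, 0 < j ∧ j ≤ k ∧ (cj z H).relIndex (Lg Q Yb) = t ^ j := by
  obtain ⟨j, hj, e⟩ := idx_eq_pow h ht hz
  refine ⟨j, hj, ?_, e⟩
  by_contra hc
  have h1 := succ_dvd_M h g.1 g.dvd_card (k := j) (e ▸ relIndex_dvd_card _ _)
  exact hk ((pow_dvd_pow t (by omega)).trans h1)

theorem false_of_five (h : Cfg T H Q 3 Ya Yb da db) (g : Good Q H Yb 5) (ht : ∀ s, Good Q H Yb s → s = 5)
    (hk : ¬ 5 ^ 3 ∣ Nat.card (T ⊓ H : Subgroup G)) : False := by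
  obtain ⟨z, hz⟩ := h.B.ne
  obtain ⟨j, h0, h1, e⟩ := idx_le h g ht (k := 1) hk hz
  obtain rfl : j = 1 := by omega
  refine false_of_count h hz (Or.inl (by rw [e]; decide)) fun c hc h2 => ?_
  rw [e, pow_one] at hc
  rcases (Nat.dvd_prime Nat.prime_five).1 hc with rfl | rfl
  · rfl
  · exact absurd h2 (by decide)

theorem false_of_three {m : ℕ} (h : Cfg T H Q r Ya Yb da db) (g : Good Q H Yb 3) (ht : ∀ s, Good Q H Yb s → s = 3)
    (hm : ¬ r ^ (m + 5) ∣ Nat.card T) (h1 : ¬ 3 ^ 3 ∣ GLp r m) (h2 : ¬ 3 ^ 5 ∣ GLp r (m + 1)) (h3 : ¬ r ^ 2 ∣ 6)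
    (h4 : ∀ i ≤ 3, 3 ^ i ≡ 1 [MOD r] → i = 0) : False := by
  obtain ⟨z, hz⟩ := h.B.ne
  have h5 := not_pow_dvd_Q h (m := m + 1) hm
  obtain ⟨j, -, h7, e⟩ := idx_le h g ht (k := 3) (fun e => h2 (pow_dvd_GLp h h5 Nat.prime_three (g.ne h) e)) hz
  refine false_of_count h hz ?_ fun c hc h8 => ?_
  · by_cases h9 : r ^ (m + 1) ∣ Nat.card Q
    · right
      intro e2
      apply hm
      refine Dvd.dvd.trans ?_ (card_dvd_of_le (inf_le_left : T ⊓ H ≤ T))
      rw [← card_mul_relIndex h.Q_le_M, show m + 5 = m + 1 + (2 + 2) by ring, pow_add]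
      exact mul_dvd_mul h9 (r_part h e2)
    · left
      obtain ⟨j', h0, h10, e'⟩ :=
        idx_le h g ht (k := 1) (fun e => h1 (pow_dvd_GLp h h9 Nat.prime_three (g.ne h) e)) hz
      obtain rfl : j' = 1 := by omega
      rw [e']
      exact h3
  · rw [e] at hc
    obtain ⟨i, hi, rfl⟩ := (Nat.dvd_prime_pow Nat.prime_three).1 hc
    rw [h4 i (by omega) h8, pow_zero]

/-- two alive primes -/
theorem two_of (h : Cfg T H Q r Ya Yb da db) {s t : ℕ} (ha : ∀ p, Good Q H Ya p → p = s ∨ p = t)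
    (hb : ∀ p, Good Q H Yb p → p = s ∨ p = t) :
    (Good Q H Yb t ∧ ∀ p, Good Q H Yb p → p = t) ∨ (Good Q H Ya t ∧ ∀ p, Good Q H Ya p → p = t) := by
  obtain ⟨b, gb⟩ := exists_good h
  obtain ⟨a, ga⟩ := exists_good h.symm
  have h3 := gb.ne_of h ga
  rcases hb b gb with rfl | rfl <;> rcases ha a ga with rfl | rfl
  · exact absurd rfl h3
  · exact Or.inr ⟨ga, fun p gp => (ha p gp).resolve_left (gb.ne_of h gp)⟩
  · exact Or.inl ⟨gb, fun p gp => (hb p gp).resolve_left (gp.ne_of h ga).symm⟩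
  · exact absurd rfl h3

/-- the second case of the dichotomy is impossible -/
def noII (cb : List (ℕ × ℕ × ℕ)) (nt : List (ℕ × ℕ)) (g r t : ℕ) : Prop :=
  ∀ p ∈ L6, p = r ∨ p = t ∨ ntB cb nt t p ∨ ∀ j ≤ 45, 0 < j → t ∣ p ^ j - 1 → ¬ p ^ (j + 1) ∣ g

instance decNoII (cb : List (ℕ × ℕ × ℕ)) (nt : List (ℕ × ℕ)) (g r t : ℕ) : Decidable (noII cb nt g r t) := by
  unfold noII; infer_instance

theorem Dat.cube_of {n : ℕ} {cb : List (ℕ × ℕ × ℕ)} {nt : List (ℕ × ℕ)} (d : Dat T n cb nt)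
    (h : Cfg T H Q r Ya Yb da db) {t : ℕ} (g : Good Q H Yb t) (hd : noII cb nt n r t) :
    t ^ 3 ∣ Nat.card (T ⊓ H : Subgroup G) := by
  rcases g.dich' h with e | ⟨p, hp, hpr, hpt, h1, -, j, hj, h4, h5⟩
  · exact e
  have h6 : p ^ (j + 1) ∣ n := d.card ▸ h5.trans (card_dvd_of_le inf_le_left)
  have h7 := h6.trans d.dvd
  have hL : p ∈ L6 := mem_L6 hp ((pow_dvd_pow p (by omega)).trans h7)
  rcases hd p hL with e | e | e | e
  · exact absurd e hpr
  · exact absurd e hpt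
  · exact absurd (d.NT g.1 hp hpt.symm e) h1
  · exact absurd h6 (e j (le_of_pow_dvd hL h7) hj h4)

/-- the order of the Monster -/
def nM : ℕ := 808017424794512875886459904961710757005754368000000000

/-- the bounds for the Monster -/
def cbM : List (ℕ × ℕ × ℕ) := [(5, 3, 7), (11, 3, 4), (13, 3, 5), (13, 2, 11)]

/-- the elements of order 7 -/
def Sev (T : Subgroup G) : Prop :=
  ∀ x ∈ T, orderOf x = 7 → 2 ∣ Nat.card (T ⊓ centralizer ({x} : Set G) : Subgroup G) →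
    ¬ 3 ^ (5 + 1) ∣ Nat.card (T ⊓ centralizer ({x} : Set G) : Subgroup G)

theorem not_seven (d : Dat T nM cbM []) (h7 : Sev T) (h : Cfg T H Q 3 Ya Yb da db) : ¬ Good Q H Yb 7 := by
  intro g
  have h2 : ¬ 3 ^ (17 + 4) ∣ Nat.card T := by rw [d.card]; decide +kernel
  have hm := not_pow_dvd_Q h h2
  by_cases ha : 7 ∣ Nat.card (Lg Q Ya)
  · exact absurd (pow_dvd_GLp h hm g.1 (by norm_num) (g.cube_dvd h ha)) (by decide +kernel)
  obtain ⟨p, hp, hpr, hpt, u0, hu0, ho, u, hu, ⟨k, hk⟩, hc, S, hS, hSp, hn, hnc⟩ :=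
    dich h g.1 (g.ne h) g.dvd_card ha
  by_cases hp2 : p = 2
  · subst hp2
    exact false_of_wie h g.1 hp (by norm_num) hpr hpt hm (fun i h0 hi => by interval_cases i <;> decide) h7
      (fun j h0 hj => by interval_cases j <;> decide) (by norm_num) (fun i h0 hi => by interval_cases i <;> decide)
      (h.Lb_le_M hu0) ho hu ⟨k, hk⟩ hc (hS.trans (inf_le_inf_right _ (sup_le h.La_le_M h.Q_le_M))) hSp hn hnc
  obtain ⟨j, hj, h1, h3⟩ := exists_mod hp g.1 hpt.symm hSp (isPGroup_zpowers hk) (zpowers_le.2 hn)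
    fun e => hnc (e (mem_zpowers u))
  have h4 : p ^ j ∣ Nat.card (Lg Q Ya) := pow_dvd_of_sup h.prime hp hpr h.isO.pg (h.Q_le_M.trans h.M_norm_La)
    ((h3 ▸ dvd_mul_right _ _ : p ^ j ∣ Nat.card S).trans (card_dvd_of_le (hS.trans inf_le_left)))
  have h5 := succ_dvd_M h.symm hp ((dvd_pow_self p hj.ne').trans h4) h4
  have h6 := d.pow_dvd h hm hp hpr h5
  have h8 : p ^ (j + 1) ∣ U0 := h6.trans ((Nat.gcd_dvd_left _ _).trans d.dvd)
  have hL : p ∈ L6 := mem_L6 hp ((pow_dvd_pow p (by omega)).trans h8)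
  by_cases hp13 : p = 13
  · subst hp13
    refine d.not_cube h hm hp hpr (by decide +kernel) ((pow_dvd_pow 13 ?_).trans h5)
    by_contra hlt
    obtain rfl : j = 1 := by omega
    exact absurd h1 (by decide)
  have key : ∀ p ∈ L6, p ≠ 2 → p ≠ 3 → p ≠ 7 → p ≠ 13 → ∀ j ≤ 45, 0 < j → 7 ∣ p ^ j - 1 →
      ¬ p ^ (j + 1) ∣ Nat.gcd nM (GLp 3 17) := by decide +kernel
  exact key p hL hp2 hpr hpt hp13 j (le_of_pow_dvd hL h8) hj h1 h6

/-- **the Monster in odd characteristic** -/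
theorem eq_two_of_M (d : Dat T nM cbM []) (h7 : Sev T) (h : Cfg T H Q r Ya Yb da db) : r = 2 := by
  have h1 := d.mem_ex h (ex := [2, 3, 5, 7]) (by decide +kernel)
  simp only [List.mem_cons, List.not_mem_nil, or_false] at h1
  rcases h1 with rfl | rfl | rfl | rfl
  · rfl
  · exfalso
    have h2 : ¬ 3 ^ (17 + 4) ∣ Nat.card T := by rw [d.card]; decide +kernel
    have hc : chkA cbM [] nM 3 [2, 5, 7] := by decide +kernel
    have key : ∀ {Ya Yb : Set G} {da db : ℕ}, Cfg T H Q 3 Ya Yb da db → ∀ p, Good Q H Yb p → p = 2 ∨ p = 5 := by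
      intro Ya Yb da db h p g
      have h3 := d.mem_alive h hc g
      simp only [List.mem_cons, List.not_mem_nil, or_false] at h3
      rcases h3 with e | e | rfl
      · exact Or.inl e
      · exact Or.inr e
      · exact absurd g (not_seven d h7 h)
    rcases two_of h (key h.symm) (key h) with ⟨g, ht⟩ | ⟨g, ht⟩
    · exact false_of_five h g ht (d.not_cube h (not_pow_dvd_Q h h2) g.1 (g.ne h) (by decide +kernel))
    · exact false_of_five h.symm g ht (d.not_cube h (not_pow_dvd_Q h h2) g.1 (g.ne h.symm) (by decide +kernel))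
  · exfalso
    have h2 : ¬ 5 ^ (5 + 5) ∣ Nat.card T := by rw [d.card]; decide +kernel
    rcases d.two h (s := 2) (t := 3) (by decide +kernel) with ⟨-, g, ht⟩ | ⟨-, g, ht⟩
    · exact false_of_three h g ht h2 (by decide +kernel) (by decide +kernel) (by decide) (by decide)
    · exact false_of_three h.symm g ht h2 (by decide +kernel) (by decide +kernel) (by decide) (by decide)
  · exfalso
    have h2 : ¬ 7 ^ (2 + 5) ∣ Nat.card T := by rw [d.card]; decide +kernel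
    rcases d.two h (s := 2) (t := 3) (by decide +kernel) with ⟨-, g, ht⟩ | ⟨-, g, ht⟩
    · exact false_of_three h g ht h2 (by decide +kernel) (by decide +kernel) (by decide) (by decide)
    · exact false_of_three h.symm g ht h2 (by decide +kernel) (by decide +kernel) (by decide) (by decide)

end Cfsg.Agent.T44.Spor
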